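import Cfsg.Agent.R2.T1.Pat2.Main8

/-!
# T1, `p = 2`, `n ≥ 8` (helper26): the pattern `(3, 3², 7) = (32, 20, 20)`

`no20` : it gives a non-zero fixed vector of `A_n`: `V^{7:3} = V^{Alt{0..6,j}}` for every `j ≥ 7`.
-/

set_option autoImplicit false
set_option maxRecDepth 100000

namespace Cfsg.Agent.R2.T1.B2

open Equiv Equiv.Perm
open Cfsg Cfsg.Lie Module
open Cfsg.Agent.H943.E7V.Block (D1 rho)
open Cfsg.Agent.H952.F4 (ev es MaxAlt GenT)
open Cfsg.Agent.R2.T1 Cfsg.Agent.R2.T1.Art Cfsg.Agent.R2.T1.Odd Cfsg.Agent.R2.T1.Pat2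

universe u

theorem gen8c : GenT 8 {3} {7} {7} :=
  Cfsg.Agent.H952.F4.Gen.genT_of (n := 6) (c[0, 7, 1]) (c[1, 7, 5, 4, 2, 3, 6]) (by decide +kernel) (by decide +kernel)
    ![[], [], [3, 1, 3, 1, 3, 1, 2, 2, 2], [3, 1, 3, 1, 2, 2], [0, 2, 0, 2, 0, 3, 3], [0, 2, 0, 3], [3, 1, 2], [0]]
    (by decide +kernel) (by decide +kernel) (by decide +kernel) (by decide +kernel)

/-- a subgroup containing the elements `(0 1)(0 k)` -/
theorem eq_top_of_star {n : ℕ} (S : Subgroup ↥(alternatingGroup (Fin (n + 2))))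
    (h : ∀ k : Fin (n + 2), k ≠ 0 → ∃ g ∈ S, (g : Perm (Fin (n + 2))) = swap 0 1 * swap 0 k) : S = ⊤ := by
  rw [eq_top_iff]
  intro σ _
  have h1 : (σ : Perm (Fin (n + 2))) ∈ S.map (alternatingGroup (Fin (n + 2))).subtype := by
    refine Cfsg.Agent.H952.F4.Gen.mem_of_star _ ?_ ?_ σ.2
    · rintro _ ⟨g, -, rfl⟩
      exact g.2
    · intro k hk
      obtain ⟨g, hg, h2⟩ := h k hk
      exact ⟨g, hg, h2⟩
  obtain ⟨τ, hτ, h3⟩ := h1
  rwa [← Subtype.ext h3]

section emb
variable {n : ℕ} (hn : 8 ≤ n)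

/-- `A_8` in `A_n` -/
noncomputable def e8 : ↥(alternatingGroup (Fin 8)) →* ↥(alternatingGroup (Fin n)) :=
  ((Perm.extendDomainHom (Fin.castLEOrderIso hn).toEquiv).comp (alternatingGroup (Fin 8)).subtype).codRestrict
    (alternatingGroup (Fin n)) fun g => by
      rw [Perm.mem_alternatingGroup]
      exact (Perm.sign_extendDomain _ _).trans (Perm.mem_alternatingGroup.1 g.2)

theorem ct_e8 (g : ↥(alternatingGroup (Fin 8))) : ((e8 hn g : ↥(alternatingGroup (Fin n))) : Perm (Fin n)).cycleType =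
    (g : Perm (Fin 8)).cycleType :=
  Perm.cycleType_extendDomain _

theorem e8_P [NeZero n] {l : List (ℕ × ℕ)} (h : vl 8 l = true) : e8 hn (P 8 l) = P n l := by
  apply Subtype.ext
  rw [coe_P hn h, pm_extend hn (vl_iff.1 h).2]
  show (P 8 l : Perm (Fin 8)).extendDomain _ = _
  rw [coe_P le_rfl h]

end emb

/-- the multiplication by 3 -/
def m3 : List (ℕ × ℕ) := [(1, 3), (3, 2), (2, 6), (6, 4), (4, 5)]
/-- the multiplication by 2 -/
def m2 : List (ℕ × ℕ) := [(1, 2), (2, 4), (3, 6), (6, 5)]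

theorem star_gen {α : Type*} [DecidableEq α] (m : Perm α) {z o f s k : α} (h0 : m z = z) (h5 : m f = o) (h7 : m s = s)
    (hz : z ≠ s) (hz' : z ≠ k) (ho : o ≠ s) (ho' : o ≠ k) :
    (swap s k * m) * (swap z f * swap z s) = swap z o * swap z k * (swap s k * m) := by
  have a1 : m * swap z f = swap z o * m := by rw [Equiv.mul_swap_eq_swap_mul, h0, h5]
  have a2 : m * swap z s = swap z s * m := by rw [Equiv.mul_swap_eq_swap_mul, h0, h7]
  have a3 : swap s k * swap z o = swap z o * swap s k := by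
    rw [Equiv.mul_swap_eq_swap_mul, swap_apply_of_ne_of_ne hz hz', swap_apply_of_ne_of_ne ho ho']
  have a4 : swap s k * swap z s = swap z k * swap s k := by
    rw [Equiv.mul_swap_eq_swap_mul, swap_apply_of_ne_of_ne hz hz', swap_apply_left]
  calc (swap s k * m) * (swap z f * swap z s) = swap s k * (m * swap z f) * swap z s := by simp only [mul_assoc]
    _ = swap s k * swap z o * (m * swap z s) := by rw [a1]; simp only [mul_assoc]
    _ = swap z o * (swap s k * swap z s) * m := by rw [a2, a3]; simp only [mul_assoc]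
    _ = _ := by rw [a4]; simp only [mul_assoc]

section c
variable {n : ℕ} [NeZero n] (hn : 8 ≤ n)

include hn in
theorem m3_apply {i j : ℕ} (hi : i < 8) (h : ap m3 i = j) (hj : j < 8) : pm n m3 (Fin.ofNat n i) = Fin.ofNat n j := by
  apply Fin.ext
  have hE : En n m3 := En.mono hn (m := 8) (by unfold En; decide)
  rw [pm_apply hE, val_ofNat' (by omega), val_ofNat' (by omega), h]

/-- `(7 k)` commutes with the permutations of `{0, …, 6}` -/
theorem swap_pm (hn : 8 ≤ n) {l : List (ℕ × ℕ)} (hl : En 7 l) {k : Fin n} (hk : 7 ≤ (k : ℕ)) :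
    swap (Fin.ofNat n 7) k * pm n l = pm n l * swap (Fin.ofNat n 7) k := by
  have h1 : pm n l (Fin.ofNat n 7) = Fin.ofNat n 7 := by
    apply Fin.ext
    rw [pm_apply (hl.mono (by omega)), val_ofNat' (by omega), ap_ge hl le_rfl]
  have h2 : pm n l k = k := by
    apply Fin.ext
    rw [pm_apply (hl.mono (by omega)), ap_ge hl hk]
  rw [Equiv.mul_swap_eq_swap_mul, h1, h2]

include hn in
theorem sign_c {k : Fin n} (hk : 8 ≤ (k : ℕ)) : sign (swap (Fin.ofNat n 7) k * pm n m3) = 1 := by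
  have hE : En n m3 := En.mono hn (m := 8) (by unfold En; decide)
  have h7 : Fin.ofNat n 7 ≠ k := by
    intro h
    have h1 := congrArg Fin.val h
    rw [val_ofNat' (by omega)] at h1
    omega
  rw [Perm.sign_mul, sign_swap h7, sign_pm hE]
  rfl

/-- the element `(7 k) m3` -/
noncomputable def cc {k : Fin n} (hk : 8 ≤ (k : ℕ)) : ↥(alternatingGroup (Fin n)) :=
  ⟨swap (Fin.ofNat n 7) k * pm n m3, mem_alternatingGroup.2 (sign_c hn hk)⟩

/-- it normalizes `7 : 3` -/
theorem cc_mul {k : Fin n} (hk : 8 ≤ (k : ℕ)) {l l' : List (ℕ × ℕ)} (hl : vl 8 l = true) (hl' : vl 8 l' = true)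
    (h7 : En 7 l') (h : cd 8 (m3 ++ l) = cd 8 (l' ++ m3)) : cc hn hk * P n l = P n l' * cc hn hk := by
  apply Subtype.ext
  show swap (Fin.ofNat n 7) k * pm n m3 * (P n l : Perm (Fin n)) = (P n l' : Perm (Fin n)) *
    (swap (Fin.ofNat n 7) k * pm n m3)
  have hE : En 8 m3 := by unfold En; decide
  have e1 : pm n m3 * pm n l = pm n l' * pm n m3 := by
    rw [← pm_append, ← pm_append]
    exact pm_eq hn (hE.append (vl_iff.1 hl).2) ((vl_iff.1 hl').2.append hE) h
  rw [coe_P hn hl, coe_P hn hl', mul_assoc, e1, ← mul_assoc, swap_pm hn h7 (by omega), mul_assoc]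

/-- it maps `(0 5)(0 7)` to `(0 1)(0 k)` -/
theorem cc_star {k : Fin n} (hk : 8 ≤ (k : ℕ)) :
    ((cc hn hk * P n [(0, 5), (0, 7)] * (cc hn hk)⁻¹ : ↥(alternatingGroup (Fin n))) : Perm (Fin n)) =
      swap (Fin.ofNat n 0) (Fin.ofNat n 1) * swap (Fin.ofNat n 0) k := by
  have h0 : pm n m3 (Fin.ofNat n 0) = Fin.ofNat n 0 := m3_apply hn (by norm_num) (by decide) (by norm_num)
  have h5 : pm n m3 (Fin.ofNat n 5) = Fin.ofNat n 1 := m3_apply hn (by norm_num) (by decide) (by norm_num)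
  have h7 : pm n m3 (Fin.ofNat n 7) = Fin.ofNat n 7 := m3_apply hn (by norm_num) (by decide) (by norm_num)
  have hne : ∀ i < 7, Fin.ofNat n i ≠ Fin.ofNat n 7 ∧ Fin.ofNat n i ≠ k := by
    intro i hi
    constructor
    · intro h
      have := ofNat_inj (n := n) (by omega) (by omega) h
      omega
    · intro h
      have h1 := congrArg Fin.val h
      rw [val_ofNat' (by omega)] at h1
      omega
  show swap (Fin.ofNat n 7) k * pm n m3 * (P n [(0, 5), (0, 7)] : Perm (Fin n)) *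
    (swap (Fin.ofNat n 7) k * pm n m3)⁻¹ = _
  rw [coe_P hn (by decide), mul_inv_eq_iff_eq_mul]
  have e1 : pm n [(0, 5), (0, 7)] = swap (Fin.ofNat n 0) (Fin.ofNat n 5) * swap (Fin.ofNat n 0) (Fin.ofNat n 7) := by
    rw [pm_cons, pm_cons, pm_nil, mul_one]
  rw [e1]
  exact star_gen _ h0 h5 h7 (hne 0 (by norm_num)).1 (hne 0 (by norm_num)).2 (hne 1 (by norm_num)).1
    (hne 1 (by norm_num)).2

end c

section main
variable {n : ℕ} {F : Type u} [Field F] [Finite F]

/-- **the pattern `(32, 20, 20)`** -/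
theorem no20 (hn : 8 ≤ n) (h2 : (2 : F) = 0) {ψ : ↥(alternatingGroup (Fin n)) →* Gh F} (h3 : DV ψ {3} 32)
    (h33 : DV ψ {3, 3} 20) (h7 : DV ψ {7} 20) (hfix : Representation.invariants (MonoidHom.comp (V F) ψ) = ⊥) :
    False := by
  obtain ⟨m, rfl⟩ : ∃ m, n = m + 2 := ⟨n - 2, by omega⟩
  set ρ : Representation F ↥(alternatingGroup (Fin (m + 2))) (D1 → F) := MonoidHom.comp (V F) ψ with hρ
  -- the fixed points of `7 : 3`
  have hd56 : finrank F (D1 → F) = 56 := finrank_V
  have hT : finrank F ↥(inv ρ (Tg (m + 2) g21)) = 8 := by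
    have hd := dim_21 h2 hn ρ
    have o7 : orderOf (P (m + 2) w7) = 7 := orderOf_P hn (by decide +kernel)
    have o7i : orderOf (P (m + 2) w7i) = 7 := orderOf_P hn (by decide +kernel)
    have o33 : orderOf (P (m + 2) l33) = 3 := orderOf_P hn (by decide +kernel)
    rw [om_one, om_prime _ (by norm_num : Nat.Prime 7) o7, om_prime _ (by norm_num : Nat.Prime 7) o7i,
      om_prime _ Nat.prime_three o33, hd56] at hd
    have e7 : ev (ρ (P (m + 2) w7)) 1 = 20 := h7 _ (by rw [ct_P hn (by decide)]; decide +kernel)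
    have e7i : ev (ρ (P (m + 2) w7i)) 1 = 20 := h7 _ (by rw [ct_P hn (by decide)]; decide +kernel)
    have e33 : ev (ρ (P (m + 2) l33)) 1 = 20 := h33 _ (by rw [ct_P hn (by decide)]; decide +kernel)
    rw [e7, e7i, e33] at hd
    have : (finrank F ↥(inv ρ (Tg (m + 2) g21)) : ℚ) = 8 := by
      push_cast at hd
      linarith
    exact_mod_cast this
  -- the fixed points of `A_8`
  set σ : Representation F ↥(alternatingGroup (Fin 8)) (D1 → F) := MonoidHom.comp ρ (e8 hn) with hσ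
  have h8 : 8 ≤ finrank F ↥σ.invariants := by
    obtain ⟨a, b, hgen, ha, hb, hab⟩ := gen8c
    have hs := Cfsg.Agent.H952.F4.Scott.scott_form σ hgen (sf F) (fun v hv => sf_nondeg' hv)
      (fun g v w => sf_V (ψ (e8 hn g)) v w)
    have e1 : ev (σ a) 1 = 32 := h3 _ (by rw [ct_e8, ha])
    have e2 : ev (σ b) 1 = 20 := h7 _ (by rw [ct_e8, hb])
    have e3 : ev (σ (a * b)) 1 = 20 := h7 _ (by rw [ct_e8, hab])
    rw [e1, e2, e3, hd56] at hs
    omega
  have hle : σ.invariants ≤ inv ρ (Tg (m + 2) g21) := by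
    intro v hv
    unfold Tg
    rw [mem_inv_closure]
    rintro x ⟨g, hg, rfl⟩
    have hg8 : vl 8 g = true := List.all_eq_true.1 (chkG_spec chkG_21).1 g hg
    rw [← e8_P hn hg8]
    exact (Representation.mem_invariants (ρ := σ) v).1 hv _
  have heq : σ.invariants = inv ρ (Tg (m + 2) g21) := Submodule.eq_of_le_of_finrank_le hle (by rw [hT]; exact h8)
  -- `W` is fixed by `A_8`
  have hW8 : ∀ w ∈ inv ρ (Tg (m + 2) g21), ∀ a : ↥(alternatingGroup (Fin 8)), ρ (e8 hn a) w = w := by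
    intro w hw a
    rw [← heq] at hw
    exact (Representation.mem_invariants (ρ := σ) w).1 hw a
  -- `W` is stable under `(7 k) m3`
  have hmem : ∀ g ∈ g21, P (m + 2) g ∈ Tg (m + 2) g21 := fun g hg => Subgroup.subset_closure ⟨g, hg, rfl⟩
  have hWc : ∀ (k : Fin (m + 2)) (hk : 8 ≤ (k : ℕ)), ∀ w ∈ inv ρ (Tg (m + 2) g21),
      ρ (cc hn hk)⁻¹ w ∈ inv ρ (Tg (m + 2) g21) := by
    intro k hk w hw
    have key : ∀ l l' : List (ℕ × ℕ), P (m + 2) l' ∈ Tg (m + 2) g21 → cc hn hk * P (m + 2) l = P (m + 2) l' * cc hn hk →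
        ρ (P (m + 2) l) (ρ (cc hn hk)⁻¹ w) = ρ (cc hn hk)⁻¹ w := by
      intro l l' h1 h2
      have h3 : P (m + 2) l * (cc hn hk)⁻¹ = (cc hn hk)⁻¹ * P (m + 2) l' := by
        rw [eq_inv_mul_iff_mul_eq, ← mul_assoc, h2, mul_inv_cancel_right]
      rw [← Module.End.mul_apply, ← map_mul, h3, map_mul, Module.End.mul_apply, hw _ h1]
    show ρ (cc hn hk)⁻¹ w ∈ inv ρ (Subgroup.closure _)
    rw [mem_inv_closure]
    rintro x ⟨g, hg, rfl⟩
    have hg' : g = w7 ∨ g = m2 := by
      simpa [g21, m2] using hg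
    rcases hg' with rfl | rfl
    · refine key w7 (pwl w7 3) ?_ (cc_mul hn hk (by decide) (by decide) (by unfold En; decide) (by decide))
      rw [P_pwl hn (m := 8) (by decide)]
      exact pow_mem (hmem w7 (by decide)) 3
    · exact key m2 m2 (hmem m2 (by decide)) (cc_mul hn hk (by decide) (by decide) (by unfold En; decide) (by decide))
  -- a non-zero vector
  obtain ⟨w, hw, hw0⟩ : ∃ w ∈ inv ρ (Tg (m + 2) g21), w ≠ 0 := by
    rw [← Submodule.ne_bot_iff]
    intro h
    rw [h, finrank_bot] at hT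
    norm_num at hT
  let S : Subgroup ↥(alternatingGroup (Fin (m + 2))) :=
    { carrier := {g | ρ g w = w}
      one_mem' := by show ρ 1 w = w; rw [map_one]; rfl
      mul_mem' := by
        intro a b ha hb
        show ρ (a * b) w = w
        rw [map_mul, Module.End.mul_apply, show ρ b w = w from hb, show ρ a w = w from ha]
      inv_mem' := by
        intro a ha
        show ρ a⁻¹ w = w
        have h1 : ρ a⁻¹ (ρ a w) = w := by rw [← Module.End.mul_apply, ← map_mul, inv_mul_cancel, map_one]; rfl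
        rwa [show ρ a w = w from ha] at h1 }
  have hS : S = ⊤ := by
    refine eq_top_of_star S fun k hk => ?_
    by_cases hk8 : 8 ≤ (k : ℕ)
    · refine ⟨cc hn hk8 * P (m + 2) [(0, 5), (0, 7)] * (cc hn hk8)⁻¹, ?_, cc_star hn hk8⟩
      show ρ (cc hn hk8 * P (m + 2) [(0, 5), (0, 7)] * (cc hn hk8)⁻¹) w = w
      rw [← e8_P hn (by decide), map_mul, map_mul, Module.End.mul_apply, Module.End.mul_apply,
        hW8 _ (hWc k hk8 w hw), ← Module.End.mul_apply, ← map_mul, mul_inv_cancel, map_one]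
      rfl
    · -- `k < 8`
      have hk0 : (k : ℕ) ≠ 0 := fun h => hk (Fin.ext h)
      have hlt : (k : ℕ) < 8 := by omega
      by_cases hk1 : (k : ℕ) = 1
      · refine ⟨1, S.one_mem, ?_⟩
        have : k = 1 := Fin.ext hk1
        rw [this, swap_mul_self]
        rfl
      have hv : vl 8 [(0, 1), (0, (k : ℕ))] = true := by
        rw [vl_iff]
        refine ⟨by simp, ?_⟩
        intro x hx
        simp only [List.mem_cons, List.not_mem_nil, or_false] at hx
        rcases hx with rfl | rfl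
        · exact ⟨by norm_num, by norm_num, by norm_num⟩
        · exact ⟨by norm_num, hlt, Ne.symm hk0⟩
      refine ⟨P (m + 2) [(0, 1), (0, (k : ℕ))], ?_, ?_⟩
      · show ρ (P (m + 2) [(0, 1), (0, (k : ℕ))]) w = w
        rw [← e8_P hn hv]
        exact hW8 w hw _
      · rw [coe_P hn hv, pm_cons, pm_cons, pm_nil, mul_one]
        have h1 : Fin.ofNat (m + 2) (k : ℕ) = k := Fin.ext (val_ofNat' k.2)
        show swap (Fin.ofNat (m + 2) 0) (Fin.ofNat (m + 2) 1) * swap (Fin.ofNat (m + 2) 0) (Fin.ofNat (m + 2) (k : ℕ)) = _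
        rw [h1]
        rfl
  apply hw0
  rw [← Submodule.mem_bot F, ← hfix, Representation.mem_invariants]
  intro g
  have hg : g ∈ S := by rw [hS]; exact Subgroup.mem_top g
  exact hg

end main

end Cfsg.Agent.R2.T1.B2
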