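import Cfsg.Agent.R2.T1.T1p.Main
import Cfsg.Agent.R2.T1.T1x.Main
import Cfsg.Agent.R2.T1.Pat2.Ct

/-!
# T1 (S5771, p = 2, n ≥ 9): embeddings of alternating groups (helper24)

* `jf f` : the homomorphism of alternating groups given by an injection `f : Fin m ↪ Fin n`;
* `noT1` : the pattern `(32, 20, 16, *, 0)` is impossible for `n ≥ 9`, `p = 2`;
* `noT1x` : the pattern `(32, 20, 16, 2, 8)` is impossible for `n ≥ 8`, `p = 2`.
-/

set_option autoImplicit false
set_option maxRecDepth 100000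

namespace Cfsg.Agent.R2.T1.B2

open Cfsg Cfsg.Lie Module Equiv Equiv.Perm
open Cfsg.Agent.H943.E7V.Block (D1 rho)
open Cfsg.Agent.H952.F4 (ev es MaxAlt)
open Cfsg.Agent.R2.T1 Cfsg.Agent.R2.T1.Pat2
open Cfsg.Agent.R2.T1.T1p (A8 US W W_eq W_symm W_self fixed_of_ev_zero)

universe u

section emb
variable {m n : ℕ}

theorem ct_via (f : Fin m ↪ Fin n) (a : Perm (Fin m)) : (a.viaEmbedding f).cycleType = a.cycleType := by
  classical
  unfold Equiv.Perm.viaEmbedding
  convert cycleType_extendDomain (Equiv.ofInjective f.1 f.2) (g := a)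

theorem sign_via (f : Fin m ↪ Fin n) (a : Perm (Fin m)) : sign (a.viaEmbedding f) = sign a := by
  classical
  unfold Equiv.Perm.viaEmbedding
  convert sign_extendDomain a (Equiv.ofInjective f.1 f.2)

/-- the homomorphism of alternating groups given by an injection -/
noncomputable def jf (f : Fin m ↪ Fin n) : ↥(alternatingGroup (Fin m)) →* ↥(alternatingGroup (Fin n)) where
  toFun a := ⟨(a : Perm (Fin m)).viaEmbedding f, by rw [mem_alternatingGroup, sign_via]; exact mem_alternatingGroup.1 a.2⟩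
  map_one' := Subtype.ext (map_one (viaEmbeddingHom f))
  map_mul' a b := Subtype.ext (map_mul (viaEmbeddingHom f) (a : Perm (Fin m)) b)

variable (f : Fin m ↪ Fin n)

theorem coe_jf (a : ↥(alternatingGroup (Fin m))) : ((jf f a : ↥(alternatingGroup (Fin n))) : Perm (Fin n)) =
    (a : Perm (Fin m)).viaEmbedding f := rfl

theorem ct_jf (a : ↥(alternatingGroup (Fin m))) : ((jf f a : ↥(alternatingGroup (Fin n))) : Perm (Fin n)).cycleType =
    (a : Perm (Fin m)).cycleType := ct_via f _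

theorem jf_apply (a : ↥(alternatingGroup (Fin m))) (i : Fin m) : (jf f a : Perm (Fin n)) (f i) = f ((a : Perm (Fin m)) i) :=
  viaEmbedding_apply _ f i

theorem jf_out (a : ↥(alternatingGroup (Fin m))) {j : Fin n} (h : ∀ i, f i ≠ j) : (jf f a : Perm (Fin n)) j = j :=
  viaEmbedding_apply_of_notMem _ f j (by rintro ⟨i, hi⟩; exact h i hi)

theorem jf_eq (a : ↥(alternatingGroup (Fin m))) {σ : Perm (Fin n)} (h1 : ∀ i, σ (f i) = f ((a : Perm (Fin m)) i))
    (h2 : ∀ j, (∀ i, f i ≠ j) → σ j = j) : (jf f a : Perm (Fin n)) = σ := by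
  refine Perm.ext fun j => ?_
  by_cases h : ∃ i, f i = j
  · obtain ⟨i, rfl⟩ := h
    rw [jf_apply, h1]
  · push Not at h
    rw [jf_out f a h, h2 j h]

theorem jf_trans {k : ℕ} (g : Fin n ↪ Fin k) (a : ↥(alternatingGroup (Fin m))) : jf (f.trans g) a = jf g (jf f a) := by
  apply Subtype.ext
  apply jf_eq
  · intro i
    show (jf g (jf f a) : Perm (Fin k)) (g (f i)) = g (f _)
    rw [jf_apply, jf_apply]
  · intro j hj
    by_cases h : ∃ i, g i = j
    · obtain ⟨i, rfl⟩ := h
      rw [jf_apply, jf_out]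
      intro i' h'
      exact hj i' (congrArg g h')
    · push Not at h
      rw [jf_out _ _ h]

variable {F : Type u} [Field F] {ψ : ↥(alternatingGroup (Fin n)) →* Gh F}

theorem dv_jf {T : Multiset ℕ} {d : ℕ} (h : DV ψ T d) : DV (ψ.comp (jf f)) T d := fun a ha => h (jf f a) (by rw [ct_jf, ha])

end emb

section pat
variable {n : ℕ} {F : Type u} [Field F] {ψ : ↥(alternatingGroup (Fin n)) →* Gh F}

/-- **the pattern `(32, 20, 16, 2, 8)`, `n ≥ 8`** -/
theorem noT1x [Finite F] (hn : 8 ≤ n) (h2 : (2 : F) = 0) (h3 : DV ψ {3} 32) (h33 : DV ψ {3, 3} 20)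
    (h7 : DV ψ {7} 2) (h53 : DV ψ {5, 3} 8) : False :=
  T1x.false_of h2 (ψ.comp (jf (Fin.castLEEmb hn))) (dv_jf _ h3) (dv_jf _ h33) (dv_jf _ h7) (dv_jf _ h53)

/-- the transposition product -/
def g8 : A8 := ⟨swap 6 7 * swap 0 1, by rw [mem_alternatingGroup]; decide +kernel⟩

/-- the second embedding of `Fin 8` -/
def f2 (hn : 9 ≤ n) : Fin 8 ↪ Fin n where
  toFun i := if i = 7 then ⟨8, by omega⟩ else ⟨i, by omega⟩
  inj' := by
    intro i j h
    simp only at h
    split_ifs at h with h1 h3 h3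
    · rw [h1, h3]
    · exact absurd (Fin.mk.inj_iff.1 h) (by have := j.2; omega)
    · exact absurd (Fin.mk.inj_iff.1 h) (by have := i.2; omega)
    · exact Fin.ext (Fin.mk.inj_iff.1 h)

/-- the first embedding -/
def f1 (hn : 9 ≤ n) : Fin 8 ↪ Fin n where
  toFun i := ⟨i, by omega⟩
  inj' := by
    intro i j h
    exact Fin.ext (Fin.mk.inj_iff.1 h)

/-- the 5-cycle -/
def c5 : A8 := ⟨c[0, 1, 2, 3, 4], by rw [mem_alternatingGroup]; decide +kernel⟩

theorem jf_agree (hn : 9 ≤ n) {a : A8} (h6 : (a : Perm (Fin 8)) 6 = 6) (h7 : (a : Perm (Fin 8)) 7 = 7) :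
    jf (f2 hn) a = jf (f1 hn) a := by
  apply Subtype.ext
  refine Perm.ext fun j => ?_
  by_cases h : (j : ℕ) < 7
  · have e1 : j = f1 hn ⟨j, by omega⟩ := rfl
    have e2 : j = f2 hn ⟨j, by omega⟩ := by
      show j = if _ then _ else _
      rw [if_neg (by intro h'; have h9 := congrArg Fin.val h'; simp at h9; omega)]
    have h8 : (a : Perm (Fin 8)) ⟨j, by omega⟩ ≠ 7 := by
      intro h'
      have h9 := congrArg Fin.val ((a : Perm (Fin 8)).injective (h'.trans h7.symm))
      simp at h9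
      omega
    have k1 : (jf (f1 hn) a : Perm (Fin n)) j = f1 hn ((a : Perm (Fin 8)) ⟨j, by omega⟩) := by
      conv_lhs => rw [e1]
      exact jf_apply _ _ _
    have k2 : (jf (f2 hn) a : Perm (Fin n)) j = f2 hn ((a : Perm (Fin 8)) ⟨j, by omega⟩) := by
      conv_lhs => rw [e2]
      exact jf_apply _ _ _
    rw [k1, k2]
    show (if _ then _ else _) = _
    rw [if_neg h8]
    rfl
  · by_cases h7' : (j : ℕ) = 7
    · have e1 : j = f1 hn 7 := Fin.ext h7'
      have k1 : (jf (f1 hn) a : Perm (Fin n)) j = j := by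
        conv_lhs => rw [e1]
        rw [jf_apply, h7, ← e1]
      rw [k1]
      refine jf_out _ _ fun i => ?_
      show (if _ then _ else _) ≠ j
      split_ifs with h9
      · intro h'; rw [← h'] at h7'; exact absurd h7' (by norm_num)
      · intro h'
        rw [← h'] at h7'
        exact h9 (Fin.ext h7')
    · have k1 : (jf (f1 hn) a : Perm (Fin n)) j = j := by
        refine jf_out _ _ fun i => ?_
        intro h'
        have : ((f1 hn i : Fin n) : ℕ) = i := rfl
        rw [h'] at this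
        have := i.2
        omega
      rw [k1]
      by_cases h8 : (j : ℕ) = 8
      · have e2 : j = f2 hn 7 := Fin.ext h8
        conv_lhs => rw [e2]
        rw [jf_apply, h7, ← e2]
      · refine jf_out _ _ fun i => ?_
        show (if _ then _ else _) ≠ j
        split_ifs with h9
        · intro h'; rw [← h'] at h8; exact h8 rfl
        · intro h'
          have : ((⟨i, by omega⟩ : Fin n) : ℕ) = i := rfl
          rw [h'] at this
          have := i.2
          omega

/-- **the pattern `(32, 20, 16, *, 0)`, `n ≥ 9`** -/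
theorem noT1 [Finite F] (hn : 9 ≤ n) (h2 : (2 : F) = 0) (h3 : DV ψ {3} 32) (h33 : DV ψ {3, 3} 20)
    (h5 : DV ψ {5} 16) (h53 : DV ψ {5, 3} 0) : False := by
  have hdim := T1p.dim_US (ψ := ψ.comp (jf (f1 hn))) (dv_jf _ h3) (dv_jf _ h33) (dv_jf _ h5)
  obtain ⟨u, hu, hu0⟩ : ∃ u ∈ US (ψ.comp (jf (f1 hn))), u ≠ 0 := by
    by_contra hcon
    push Not at hcon
    have : US (ψ.comp (jf (f1 hn))) = ⊥ := by
      rw [eq_bot_iff]
      intro v hv
      rw [hcon v hv]
      exact zero_mem _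
    rw [this, finrank_bot] at hdim
    omega
  have hu' : u ∈ US (ψ.comp (jf (f2 hn))) := by
    intro a h6 h7
    show V F (ψ (jf (f2 hn) a)) u = u
    rw [jf_agree hn h6 h7]
    exact hu a h6 h7
  have key : ∀ f : Fin 8 ↪ Fin n, u ∈ US (ψ.comp (jf f)) → V F (ψ (jf f g8)) u = u := by
    intro f hf
    have e1 : V F ((ψ.comp (jf f)) g8) u = W (ψ.comp (jf f)) u 7 6 :=
      W_eq hf (by decide +kernel) (by decide +kernel)
    rw [W_symm h2 (dv_jf f h53) hf (by decide), W_self hf] at e1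
    exact e1
  have k1 := key _ hu
  have k2 := key _ hu'
  have k3 : V F (ψ (jf (f1 hn) c5)) u = u := hu c5 (by decide +kernel) (by decide +kernel)
  -- the product
  set x : ↥(alternatingGroup (Fin n)) := jf (f1 hn) c5 * (jf (f1 hn) g8 * jf (f2 hn) g8) with hx
  have hxu : V F (ψ x) u = u := by
    rw [hx, map_mul, V_mul, map_mul, V_mul, k2, k1, k3]
  have hct : (x : Perm (Fin n)).cycleType = {5, 3} := by
    have t1 : f1 hn = (f1 le_rfl).trans (Fin.castLEEmb hn) := rfl
    have t2 : f2 hn = (f2 le_rfl).trans (Fin.castLEEmb hn) := by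
      ext i
      show ((if i = 7 then (⟨8, by omega⟩ : Fin n) else ⟨i, by omega⟩ : Fin n) : ℕ) =
        ((if i = 7 then (⟨8, by omega⟩ : Fin 9) else ⟨i, by omega⟩ : Fin 9) : ℕ)
      split_ifs <;> rfl
    have e : x = jf (Fin.castLEEmb hn) (jf (f1 le_rfl) c5 * (jf (f1 le_rfl) g8 * jf (f2 le_rfl) g8)) := by
      rw [hx, t1, t2, jf_trans, jf_trans, jf_trans, map_mul, map_mul]
    rw [e, ct_jf]
    show ((jf (f1 le_rfl) c5 : Perm (Fin 9)) * ((jf (f1 le_rfl) g8 : Perm (Fin 9)) * (jf (f2 le_rfl) g8 : Perm (Fin 9)))).cycleType = _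
    rw [jf_eq (f1 le_rfl) c5 (σ := c[0, 1, 2, 3, 4]) (by decide +kernel) (by decide +kernel),
      jf_eq (f1 le_rfl) g8 (σ := swap 6 7 * swap 0 1) (by decide +kernel) (by decide +kernel),
      jf_eq (f2 le_rfl) g8 (σ := swap 6 8 * swap 0 1) (by decide +kernel) (by decide +kernel)]
    decide +kernel
  exact hu0 (fixed_of_ev_zero (h53 x hct) hxu)

end pat

end Cfsg.Agent.R2.T1.B2
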