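import Cfsg.Agent.R2.T1.Pat2.El2
import Cfsg.Agent.R2.T1.Inf.Art

/-!
# T1 (S5771): `n ≤ 14` if `p ≠ 5` (helper24)

All elements of order 5 of `A_n`, `n ≥ 7`, are conjugate to their squares, so they have 16 eigenvalues 1 on `V F`;
an elementary abelian group of order 125 would have a fixed space of dimension `800 / 125`.
-/

set_option autoImplicit false

namespace Cfsg.Agent.R2.T1.B2

open Cfsg Cfsg.Lie Module Equiv Equiv.Perm
open Cfsg.Agent.H943.E7V.Block (D1 rho)
open Cfsg.Agent.H952.F4 (ev es)
open Cfsg.Agent.R2.T1 Cfsg.Agent.R2.T1.Pat2 Cfsg.Agent.R2.T1.Art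

universe u

section perm
variable {α : Type*} [Fintype α] [DecidableEq α]

theorem conj_alt {g g' : ↥(alternatingGroup α)} (hct : (g : Perm α).cycleType = (g' : Perm α).cycleType)
    {τ : Perm α} (h1 : sign τ = -1) (h2 : τ * g * τ⁻¹ = g) : ∃ c : ↥(alternatingGroup α), c * g * c⁻¹ = g' := by
  obtain ⟨σ, hσ⟩ := isConj_iff.1 (isConj_iff_cycleType_eq.2 hct)
  rcases Int.units_eq_one_or (sign σ) with hs | hs
  · exact ⟨⟨σ, mem_alternatingGroup.2 hs⟩, Subtype.ext hσ⟩
  · refine ⟨⟨σ * τ, mem_alternatingGroup.2 (by rw [Perm.sign_mul, hs, h1]; decide)⟩, Subtype.ext ?_⟩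
    show σ * τ * (g : Perm α) * (σ * τ)⁻¹ = g'
    rw [mul_inv_rev, ← hσ]
    conv_rhs => rw [← h2]
    group

theorem rat5 (h7 : 7 ≤ Fintype.card α) {g : ↥(alternatingGroup α)} (hg : orderOf (g : Perm α) = 5) :
    ∃ c : ↥(alternatingGroup α), c * g * c⁻¹ = g ^ 2 := by
  obtain ⟨m, hm⟩ := cycleType_prime_order (σ := (g : Perm α)) (by rw [hg]; norm_num)
  have hg2 : orderOf ((g : Perm α) ^ 2) = 5 := by
    rw [orderOf_pow, hg]; rfl
  obtain ⟨m', hm'⟩ := cycleType_prime_order (σ := (g : Perm α) ^ 2) (by rw [hg2]; norm_num)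
  have hs : ((g : Perm α) ^ 2).support = (g : Perm α).support := support_pow_coprime (by rw [hg]; decide)
  have hmm : m' = m := by
    have e1 := sum_cycleType ((g : Perm α) ^ 2)
    rw [hs, ← sum_cycleType (g : Perm α), hm, hm', Multiset.sum_replicate, Multiset.sum_replicate, hg, hg2, smul_eq_mul,
      smul_eq_mul] at e1
    omega
  have hct : (g : Perm α).cycleType = ((g ^ 2 : ↥(alternatingGroup α)) : Perm α).cycleType := by
    show _ = ((g : Perm α) ^ 2).cycleType
    rw [hm, hm', hmm, hg, hg2]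
  have hc : ¬ Subgroup.centralizer {(g : Perm α)} ≤ alternatingGroup α := by
    rw [centralizer_le_alternating_iff]
    rintro ⟨-, h1, h3⟩
    have h4 := h3 5
    rw [hm, hg, Multiset.count_replicate_self] at h4
    rw [hm, hg, Multiset.sum_replicate, smul_eq_mul] at h1
    omega
  obtain ⟨τ, hτ, hτ'⟩ := SetLike.not_le_iff_exists.1 hc
  rw [Subgroup.mem_centralizer_singleton_iff] at hτ
  refine conj_alt hct (τ := τ) ?_ ?_
  · rcases Int.units_eq_one_or (sign τ) with hs | hs
    · exact absurd (mem_alternatingGroup.2 hs) hτ'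
    · exact hs
  · rw [mul_inv_eq_iff_eq_mul]
    exact hτ

end perm

/-- the elementary abelian group of order 125 -/
abbrev T5 : Type := Fin 3 → Multiplicative (ZMod 5)

/-- its action on 15 points -/
def act5 : T5 →* Perm (Fin 3 × ZMod 5) where
  toFun x :=
    { toFun := fun p => (p.1, (x p.1).toAdd + p.2)
      invFun := fun p => (p.1, -(x p.1).toAdd + p.2)
      left_inv := fun p => by simp
      right_inv := fun p => by simp }
  map_one' := by
    ext p
    · rfl
    · simp
  map_mul' x y := by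
    ext p
    · rfl
    · simp [add_assoc]

theorem act5_inj : Function.Injective act5 := by
  intro x y h
  funext i
  have h1 := congrArg (fun σ : Perm (Fin 3 × ZMod 5) => (σ (i, 0)).2) h
  simpa [act5] using h1

theorem T5_pow (x : T5) : x ^ 5 = 1 := by
  funext i
  show (x i) ^ 5 = 1
  have : ∀ a : Multiplicative (ZMod 5), a ^ 5 = 1 := by decide
  exact this _

variable {n : ℕ} {F : Type u} [Field F] {ψ : ↥(alternatingGroup (Fin n)) →* Gh F}

/-- **`n ≤ 14`** -/
theorem le14 [Finite F] (h5 : (5 : F) ≠ 0) (hinj : Function.Injective ψ) : n ≤ 14 := by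
  by_contra hn
  push Not at hn
  have hcard : Fintype.card (Fin 3 × ZMod 5) ≤ Fintype.card (Fin n) := by
    rw [Fintype.card_prod, Fintype.card_fin, ZMod.card, Fintype.card_fin]
    omega
  obtain ⟨ι⟩ := Function.Embedding.nonempty_of_card_le hcard
  let Θ : T5 →* Perm (Fin n) := (viaEmbeddingHom ι).comp act5
  have hΘ : Function.Injective Θ := (viaEmbeddingHom_injective ι).comp act5_inj
  have hsgn : ∀ x, Θ x ∈ alternatingGroup (Fin n) := by
    intro x
    rw [mem_alternatingGroup]
    have h1 : sign (Θ x) ^ 5 = 1 := by rw [← map_pow, ← map_pow, T5_pow, map_one, map_one]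
    rcases Int.units_eq_one_or (sign (Θ x)) with hs | hs
    · exact hs
    · rw [hs] at h1
      exact absurd h1 (by decide)
  let Θ' : T5 →* ↥(alternatingGroup (Fin n)) := Θ.codRestrict _ hsgn
  let σ : Representation F T5 (D1 → F) := (V F).comp (ψ.comp Θ')
  have hc125 : Fintype.card T5 = 125 := by
    rw [Fintype.card_pi_const, Fintype.card_multiplicative, ZMod.card]
    norm_num
  have h125 : ((Fintype.card T5 : ℕ) : F) ≠ 0 := by
    rw [hc125, show (125 : ℕ) = 5 ^ 3 by norm_num, Nat.cast_pow]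
    exact pow_ne_zero 3 (by exact_mod_cast h5)
  have key := artin h125 σ
  have hom : ∀ x : T5, om σ x = 6 + if x = 1 then 50 else 0 := by
    intro x
    split_ifs with hx
    · rw [hx, om_one, finrank_V]
      norm_num
    · have ho : orderOf x = 5 := orderOf_eq_prime (T5_pow x) hx
      rw [om_prime σ (by norm_num) ho]
      have hgo : orderOf ((Θ' x : ↥(alternatingGroup (Fin n))) : Perm (Fin n)) = 5 := by
        show orderOf (Θ x) = 5
        rw [orderOf_injective Θ hΘ, ho]
      obtain ⟨c, hc⟩ := rat5 (by rw [Fintype.card_fin]; omega) hgo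
      have hx1 : ψ (Θ' x) ≠ 1 := by
        intro h
        rw [← map_one ψ] at h
        have h' := hinj h
        rw [h'] at hgo
        simp at hgo
      have hx5 : ψ (Θ' x) ^ 5 = 1 := by rw [← map_pow, ← map_pow, T5_pow, map_one, map_one]
      have hev : ev (V F (ψ (Θ' x))) 1 = 16 := (five_ratL h5 (g := ψ c) hx5 hx1 (by
        rw [← map_inv, ← map_mul, ← map_mul, hc, map_pow])).1
      have hev' : ev (σ x) 1 = 16 := hev
      rw [hev', finrank_V]
      norm_num
  rw [Finset.sum_congr rfl fun x _ => hom x, Finset.sum_add_distrib, Finset.sum_ite_eq' Finset.univ (1 : T5)] at key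
  rw [if_pos (Finset.mem_univ _), Finset.sum_const, Finset.card_univ, hc125, nsmul_eq_mul] at key
  have key' : 125 * finrank F ↥σ.invariants = 800 := by
    have : ((125 * finrank F ↥σ.invariants : ℕ) : ℚ) = ((800 : ℕ) : ℚ) := by
      push_cast at key ⊢
      rw [key]
      norm_num
    exact_mod_cast this
  omega

end Cfsg.Agent.R2.T1.B2
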