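import Cfsg.Agent.R2.T1.Mu2.Ts

/-!
# S5771, big2 (helper11): the 2-group version of `Mu2.ts`

* `ts2` : `H` maximal, characteristic 2, `2 ^ 27` does not divide `|H|`, `W ≠ ⊥` stable under `H`, all elements of `W`
  singular: contradiction.
-/

set_option autoImplicit false
set_option maxRecDepth 100000

namespace Cfsg.Agent.R2.T1.B2

open Cfsg Cfsg.Lie Matrix Module
open Cfsg.Agent.R2.T1 Cfsg.Agent.R2.PX Cfsg.Agent.R2.T1.Mu2
open Cfsg.Agent.ChevalleyStructure.Elts Cfsg.Agent.ChevalleyStructure.RootVec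
  Cfsg.Agent.ChevalleyStructure.RootVecTab
open Cfsg.Agent.H943.E7V.Block (D1 rho)

universe u
variable {F : Type u} [Field F] {H : Subgroup ↥(chevE7.group F)}

/-- two steps -/
theorem two_steps {r s : ℕ} (hr : r < 126) (hs : s < 126) {m n n' : D1} {c c' : ℤ} (h : mv r (nn m) = some (nn n, c))
    (h' : mv s (nn m) = some (nn n', c')) {a b : D1} (hne : (NM F r *ᵥ (NM F s *ᵥ bs F b)) a ≠ 0) :
    p2 b m = p2 a m + 4 := by
  obtain ⟨b1, d1, e1, e2⟩ := NM_mulVec_ne hne
  obtain ⟨b2, d2, e3, e4⟩ := NM_mulVec_ne e2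
  have hb : b2 = b := by
    by_contra h1
    exact e4 (bs_ne h1)
  subst hb
  have h1 := Tr.grade hr h e1
  have h2 := Tr.grade hs h' e3
  omega

/-- **the roots leading away from a weight commute** -/
theorem NM_comm_top {r s : ℕ} (hr : r < 126) (hs : s < 126) {m n n' : D1} {c c' : ℤ} (h : mv r (nn m) = some (nn n, c))
    (h' : mv s (nn m) = some (nn n', c')) : NM F r * NM F s = NM F s * NM F r := by
  have hne : s ≠ 125 - r := by
    rintro rfl
    rcases wr_spec hr m with ⟨-, -, h3⟩ | ⟨-, h3, -⟩ | ⟨-, h3, -⟩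
    · rw [h3] at h'; exact absurd h' (by simp)
    · rw [h3] at h; exact absurd h (by simp)
    · rw [h3] at h; exact absurd h (by simp)
  have hD := NM_comm (F := F) hr hs hne
  rw [← sub_eq_zero, hD]
  by_cases h0 : lk (PC.getD r 0) s = 0
  · exact csM_zero h0
  have hu : (lk (PC.getD r 0) s - 2) / 2 < 126 := by
    rcases PC_spec hr hs with ⟨h1, -⟩ | ⟨-, -, h1, -⟩
    · exact absurd h1 h0
    · exact h1
  apply mat_ext
  intro b
  funext a
  rw [Matrix.zero_mulVec, Pi.zero_apply]
  by_contra hab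
  -- the adjacency
  have h1 : p2 a b = 1 := by
    have h2 := hab
    rw [csM_ne h0, Matrix.smul_mulVec, Pi.smul_apply, smul_eq_mul] at h2
    obtain ⟨b', d, h3, h4⟩ := NM_mulVec_ne (right_ne_zero_of_mul h2)
    have hb : b' = b := by
      by_contra h5
      exact h4 (bs_ne h5)
    subst hb
    exact p2_of_mv hu h3
  have h2 : p2 b m = p2 a m + 4 := by
    rw [← hD, Matrix.sub_mulVec, ← Matrix.mulVec_mulVec, ← Matrix.mulVec_mulVec, Pi.sub_apply] at hab
    by_cases h3 : (NM F r *ᵥ (NM F s *ᵥ bs F b)) a = 0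
    · rw [h3, zero_sub] at hab
      exact two_steps hs hr h' h (fun h4 => hab (by rw [h4, neg_zero]))
    · exact two_steps hr hs h h' h3
  rcases p2_cases b m with h3 | h3 | h3 | h3
  · have h4 := p2_eq_three.1 h3
    subst h4
    omega
  · have h4 : p2 a m = -3 := by omega
    have h5 : p2 m a = -3 := by rw [p2_comm]; exact h4
    have h6 := p2_eq_neg_three.1 h5
    rw [h6, p2_op, p2_comm] at h1
    omega
  · rcases p2_cases a m with h4 | h4 | h4 | h4 <;> omega
  · rcases p2_cases a m with h4 | h4 | h4 | h4 <;> omega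

/-- the root elements leading away from `m` -/
def SS (F : Type u) [Field F] (m : D1) : Set (Gh F) :=
  {g | ∃ r < 126, ∃ (n : D1) (c : ℤ) (t : F), mv r (nn m) = some (nn n, c) ∧ g = xs F r t}

theorem SS_comm {m : D1} : ∀ x ∈ SS F m, ∀ y ∈ SS F m, x * y = y * x := by
  rintro _ ⟨r, hr, n, c, t, h, rfl⟩ _ ⟨s, hs, n', c', t', h', rfl⟩
  apply V_injective
  refine LinearMap.ext fun v => ?_
  rw [V_mul, V_mul, V_xs hr, V_xs hs, V_xs hs, V_xs hr]
  have h1 := NM_comm_top (F := F) hr hs h h'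
  have h2 : NM F r *ᵥ (NM F s *ᵥ v) = NM F s *ᵥ (NM F r *ᵥ v) := by
    rw [Matrix.mulVec_mulVec, Matrix.mulVec_mulVec, h1]
  rw [Matrix.mulVec_add, Matrix.mulVec_add, Matrix.mulVec_smul, Matrix.mulVec_smul, h2, smul_add, smul_add, smul_smul,
    smul_smul, mul_comm t t']
  abel

theorem xs_sq2 (h2 : (2 : F) = 0) {r : ℕ} (hr : r < 126) (t : F) : xs F r t * xs F r t = 1 := by
  apply faithful
  refine LinearMap.ext fun v => ?_
  rw [V_mul, V_xs hr, V_xs hr, Module.End.one_apply]
  have h1 : NM F r *ᵥ (NM F r *ᵥ v) = 0 := by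
    rw [Matrix.mulVec_mulVec, NM_mul_self hr, Matrix.zero_mulVec]
  rw [Matrix.mulVec_add, Matrix.mulVec_smul, h1, smul_zero, add_zero]
  funext a
  simp only [Pi.add_apply, Pi.smul_apply, smul_eq_mul]
  linear_combination (t * (NM F r *ᵥ v) a) * h2

/-- the unipotent radical, characteristic 2 -/
theorem sq_one2 (h2 : (2 : F) = 0) {m : D1} {g : Gh F} (hg : g ∈ Subgroup.closure (SS F m)) : g * g = 1 := by
  have hc : IsMulCommutative (Subgroup.closure (SS F m)) := Subgroup.isMulCommutative_closure SS_comm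
  induction hg using Subgroup.closure_induction with
  | mem x hx =>
    obtain ⟨r, hr, n, c, t, h, rfl⟩ := hx
    exact xs_sq2 h2 hr t
  | one => exact one_mul 1
  | mul x y hx hy h3 h4 =>
    have h5 : x * y = y * x := congrArg Subtype.val (hc.is_comm.comm ⟨x, hx⟩ ⟨y, hy⟩)
    calc x * y * (x * y) = x * (y * x) * y := by simp only [mul_assoc]
      _ = x * (x * y) * y := by rw [h5]
      _ = (x * x) * (y * y) := by simp only [mul_assoc]
      _ = 1 := by rw [h3, h4, one_mul]
  | inv x hx h3 => rw [← _root_.mul_inv_rev, h3, inv_one]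

theorem ad_inj (h2 : (2 : F) = 0) {g h : Gh F} (hgh : ad F g = ad F h) : g = h := by
  rcases ad_eq_iff.1 hgh with h1 | h1
  · exact h1
  · apply V_injective
    rw [h1]
    refine LinearMap.ext fun v => ?_
    rw [LinearMap.neg_apply]
    funext a
    rw [Pi.neg_apply]
    linear_combination (-(V F h v a)) * h2

/-- **totally singular subspaces, characteristic 2** -/
theorem ts2 [Finite F] (hF2 : (2 : F) = 0) (hM : IsCoatom H) (hd : ¬ 2 ^ 27 ∣ Nat.card ↥H)
    {W : Submodule F (D1 → F)} (hW : Stab (V F) H W) (h0 : W ≠ ⊥) (hs : ∀ x ∈ W, Sing x) : False := by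
  classical
  obtain ⟨x, hx, hx0⟩ := Submodule.exists_mem_ne_zero_of_ne_bot h0
  obtain ⟨g0, hg0⟩ := Tr.exists_coord hx0 topv
  obtain ⟨g1, hg1, -⟩ := nf ((hs x hx).V g0) hg0
  -- the conjugate of `W`
  set g : Gh F := g0⁻¹ * g1 with hg
  have hgx : x = (V F g0 x topv) • V F g (bs F topv) := by
    rw [hg, V_mul, ← map_smul, ← hg1, V_inv]
  have hmem : V F g (bs F topv) ∈ W := by
    have h2 : V F g (bs F topv) = (V F g0 x topv)⁻¹ • x := by
      rw [eq_inv_smul_iff₀ hg0]; exact hgx.symm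
    rw [h2]
    exact W.smul_mem _ hx
  have hsupp : ∀ y, V F g y ∈ W → (∀ a, p2 a topv = -1 → y a = 0) ∧ y (op topv) = 0 := by
    intro y hy
    apply orth_bs
    intro z
    have hs' : ∀ w, V F g w ∈ W → Sing w := fun w hw => sing_V.1 (hs _ hw)
    exact polar_zero (W := W.comap (V F g)) (fun w hw => hs' w hw) (x := bs F topv) (y := y) hmem hy z
  have hWtop : W ≠ ⊤ := by
    intro h
    have h1 := (hsupp (bs F (op topv)) (by rw [h]; trivial)).2
    rw [bs_same] at h1
    exact one_ne_zero h1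
  -- the root groups
  have hroot : ∀ r < 126, ∀ (n : D1) (c : ℤ), mv r (nn (op topv)) = some (nn n, c) → ∀ t : F,
      ad F (g * xs F r t * g⁻¹) ∈ H := by
    intro r hr n c hmv t
    refine blue hM hW h0 hWtop fun w hw => ?_
    rw [V_mul, V_mul]
    have hw' : V F g (V F g⁻¹ w) ∈ W := by rw [V_inv']; exact hw
    obtain ⟨s1, s2⟩ := hsupp _ hw'
    set y := V F g⁻¹ w with hy
    rw [V_xs hr, map_add, map_smul]
    refine W.add_mem hw' (W.smul_mem _ ?_)
    -- the image is a multiple of the highest weight vector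
    have h1 : NM F r *ᵥ y = ((NM F r *ᵥ y) topv) • bs F topv := by
      funext a
      by_cases ha : a = topv
      · rw [ha, Pi.smul_apply, bs_same, smul_eq_mul, mul_one]
      · rw [Pi.smul_apply, bs_ne ha, smul_zero]
        by_contra hne
        obtain ⟨b, d, h2, h3⟩ := NM_mulVec_ne hne
        have h4 := Tr.grade hr hmv h2
        rw [p2_op', p2_op'] at h4
        rcases p2_cases b topv with h5 | h5 | h5 | h5
        · rcases p2_cases a topv with h6 | h6 | h6 | h6 <;> omega
        · exact ha (p2_eq_three.1 (by omega))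
        · exact h3 (s1 b h5)
        · rw [p2_comm] at h5
          rw [p2_eq_neg_three.1 h5] at h3
          exact h3 s2
    rw [h1, map_smul]
    exact W.smul_mem _ hmem
  -- counting
  let P : Subgroup (Gh F) := Subgroup.closure (SS F (op topv))
  have hPH : P ≤ H.comap ((ad F).comp (MulAut.conj g).toMonoidHom) := by
    rw [Subgroup.closure_le]
    rintro _ ⟨r, hr, n, c, t, hmv, rfl⟩
    exact hroot r hr n c hmv t
  have hPQ : P ≤ QQ F := by
    rw [Subgroup.closure_le]
    rintro _ ⟨r, hr, n, c, t, hmv, rfl⟩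
    exact xs_QQ hr hmv t
  have hPm : ∀ n : D1, p2 n (op topv) = 1 → ∀ r < 126, ∀ c, mv r (nn (op topv)) = some (nn n, c) → ∀ t : F, xs F r t ∈ P := by
    intro n _ r hr c hmv t
    exact Subgroup.subset_closure ⟨r, hr, n, c, t, hmv, rfl⟩
  let vec : (Nb → F) → (D1 → F) := fun c a => if h : p2 a (op topv) = 1 then c ⟨a, h⟩ else if a = op topv then 1 else 0
  have hv1 : ∀ c, vec c (op topv) = 1 := by
    intro c
    have : p2 (op topv) (op topv) ≠ 1 := by rw [p2_self]; omega
    simp only [vec]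
    rw [dif_neg this]
    simp
  have hv2 : ∀ c (n : Nb), vec c n.1 = c n := by
    intro c n
    simp only [vec]
    rw [dif_pos n.2]
    rfl
  have hex : ∀ c : Nb → F, ∃ u : ↥P, V F (u : Gh F) (vec c) (op topv) = 1 ∧ ∀ n : Nb, V F (u : Gh F) (vec c) n.1 = 0 := by
    intro c
    obtain ⟨u, hu, h1, h2, -⟩ := Tr.clear P (op topv) (x := vec c) (by rw [hv1]; exact one_ne_zero)
      (Finset.univ.filter fun n => p2 n (op topv) = 1) (fun n hn => ⟨(Finset.mem_filter.1 hn).2, hPm n (Finset.mem_filter.1 hn).2⟩)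
    exact ⟨⟨u, hu⟩, by rw [h1, hv1], fun n => h2 n.1 (Finset.mem_filter.2 ⟨Finset.mem_univ _, n.2⟩)⟩
  choose u hu1 hu2 using hex
  have hinj : Function.Injective u := by
    intro c c' hcc
    funext n
    have h4 : V F (u c : Gh F) (vec c - vec c') n.1 = 0 := by
      rw [map_sub, Pi.sub_apply, hu2, hcc, hu2, sub_zero]
    rw [(mem_QQ.1 (hPQ (u c).2) (vec c - vec c')).2 (by rw [Pi.sub_apply, hv1, hv1, sub_self]) n.1 n.2, Pi.sub_apply, hv2, hv2] at h4
    exact sub_eq_zero.1 h4
  let f : ↥P →* ↥H :=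
    { toFun := fun x => ⟨ad F (g * x * g⁻¹), hPH x.2⟩
      map_one' := by
        apply Subtype.ext
        show ad F (g * (1 : Gh F) * g⁻¹) = 1
        rw [mul_one, mul_inv_cancel, map_one]
      map_mul' := fun x y => by
        apply Subtype.ext
        show ad F (g * ((x : Gh F) * y) * g⁻¹) = ad F (g * x * g⁻¹) * ad F (g * y * g⁻¹)
        rw [← map_mul]
        congr 1
        group }
  have hf : Function.Injective f := by
    intro x y hxy
    have h1 : ad F (g * x * g⁻¹) = ad F (g * y * g⁻¹) := congrArg Subtype.val hxy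
    have h2 := ad_inj hF2 h1
    exact Subtype.ext (mul_left_cancel (mul_right_cancel h2))
  have hfin : Finite ↥P := Finite.of_injective f hf
  have hdvd : Nat.card ↥P ∣ Nat.card ↥H := Subgroup.card_dvd_of_injective f hf
  have hPP : IsPGroup 2 ↥P := fun x => ⟨1, by
    apply Subtype.ext
    show (x : Gh F) ^ (2 ^ 1) = 1
    rw [pow_one, pow_two]
    exact sq_one2 hF2 x.2⟩
  obtain ⟨k, hk⟩ := IsPGroup.iff_card.1 hPP
  have h1 := Nat.card_le_card_of_injective _ hinj
  have h2 : Nat.card F ^ 27 ≤ Nat.card (Nb → F) := by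
    rw [Nat.card_fun, Nat.card_eq_fintype_card (α := Nb)]
    exact Nat.pow_le_pow_right (by have := two_le_card (F := F); omega) card_Nb
  have h3 : 2 ^ 27 ≤ Nat.card F ^ 27 := Nat.pow_le_pow_left two_le_card 27
  have h4 : 27 ≤ k := by
    by_contra h5
    push Not at h5
    have h6 : 2 ^ k < 2 ^ 27 := Nat.pow_lt_pow_right (by norm_num) h5
    omega
  exact hd ((pow_dvd_pow 2 h4).trans (hk ▸ hdvd))

end Cfsg.Agent.R2.T1.B2
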